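import Cfsg.Agent.H136.EE.Two

/-!
# The stabiliser of a `D₄`-system (helper136, S3384)

`exists_rb` : four roots of `Ph b` with the products of `b` are conjugate under `RB b` to a permutation of `b`.
-/

set_option autoImplicit false
set_option linter.unusedSectionVars false

namespace Cfsg.Agent.H136.EE

open CoxeterSystem Subgroup Cfsg Cfsg.Lie Cfsg.Lie.ChevalleyDatum
open Cfsg.Agent.ChevalleyStructure Cfsg.Agent.ChevalleyStructure.Elts Cfsg.Agent.ChevalleyStructure.CoxeterGeom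
  Cfsg.Agent.ChevalleyStructure.CoxeterGeomTypes Cfsg.Agent.ChevalleyStructure.NPerm
open Cfsg.Agent.Tits.Roots Cfsg.Agent.Tits.Core Cfsg.Agent.Nodes Cfsg.Agent.Nodes.SubComb Cfsg.Agent.Nodes.Reps Cfsg.Agent.Nodes.BNOf
  Cfsg.Agent.Nodes.RGDChev Cfsg.Agent.Nodes.Bruhat Cfsg.Agent.Nodes.Coroot
open Cfsg.Agent.H865.EE

/-- the form of `D₄` in coordinates -/
def d4 : List ℤ → List ℤ → ℤ
  | [x0, x1, x2, x3], [y0, y1, y2, y3] =>
    x0 * (2 * y0 - y1) + x1 * (2 * y1 - y0 - y2 - y3) + x2 * (2 * y2 - y1) + x3 * (2 * y3 - y1)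
  | _, _ => 0

/-- the simple reflections of `D₄` in coordinates -/
def s4 (i : Fin 4) : List ℤ → List ℤ
  | [x0, x1, x2, x3] =>
    match i with
    | 0 => [x1 - x0, x1, x2, x3]
    | 1 => [x0, x0 + x2 + x3 - x1, x2, x3]
    | 2 => [x0, x1, x1 - x2, x3]
    | 3 => [x0, x1, x2, x1 - x3]
  | _ => []

/-- a word of simple reflections, first letter first -/
def ap4 (w : List (Fin 4)) (x : List ℤ) : List ℤ := w.foldl (fun x i => s4 i x) x

/-- the roots of `D₄` in coordinates and words of simple reflections moving them to the root 1 -/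
def t1 : List (List ℤ × List (Fin 4)) := [
  ([-1, -2, -1, -1], [1, 3, 2, 0, 1]), ([-1, -1, -1, -1], [3, 2, 0, 1]), ([-1, -1, -1, 0], [2, 0, 1]),
  ([-1, -1, 0, -1], [3, 0, 1]), ([-1, -1, 0, 0], [0, 1]), ([-1, 0, 0, 0], [0, 1, 0]), ([0, -1, -1, -1], [3, 2, 1]),
  ([0, -1, -1, 0], [2, 1]), ([0, -1, 0, -1], [3, 1]), ([0, -1, 0, 0], [1]), ([0, 0, -1, 0], [1, 2, 1]),
  ([0, 0, 0, -1], [1, 3, 1]), ([0, 0, 0, 1], [1, 3]), ([0, 0, 1, 0], [1, 2]), ([0, 1, 0, 0], []),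
  ([0, 1, 0, 1], [3]), ([0, 1, 1, 0], [2]), ([0, 1, 1, 1], [3, 2]), ([1, 0, 0, 0], [1, 0]), ([1, 1, 0, 0], [0]),
  ([1, 1, 0, 1], [3, 0]), ([1, 1, 1, 0], [2, 0]), ([1, 1, 1, 1], [3, 2, 0]), ([1, 2, 1, 1], [1, 3, 2, 0])]

/-- the roots with product -1 with the root 1, and words fixing the root 1 and moving them to the root 0 -/
def t2 : List (List ℤ × List (Fin 4)) := [
  ([-1, -2, -1, -1], [0, 1, 3, 2, 1, 0]), ([-1, -1, 0, 0], [3, 1, 2, 0, 1, 3, 0, 1, 2, 1, 0]),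
  ([0, -1, -1, 0], [0, 1, 2, 1, 0]), ([0, -1, 0, -1], [0, 1, 3, 1, 0]), ([0, 0, 0, 1], [2, 1, 3, 0, 1, 2]),
  ([0, 0, 1, 0], [3, 1, 2, 0, 1, 3]), ([1, 0, 0, 0], []), ([1, 1, 1, 1], [2, 1, 3, 1, 2])]

/-- the completions of the roots 0 and 1 -/
def t3 : List (List ℤ × List ℤ × Fin 6 × List (Fin 4)) := [
  ([-1, -2, -1, -1], [0, 0, 0, 1], 5, [2, 1, 3, 0, 1, 2]), ([-1, -2, -1, -1], [0, 0, 1, 0], 3, [3, 1, 2, 0, 1, 3]),
  ([0, 0, 0, 1], [-1, -2, -1, -1], 4, [2, 1, 3, 0, 1, 2]), ([0, 0, 0, 1], [0, 0, 1, 0], 1, []),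
  ([0, 0, 1, 0], [-1, -2, -1, -1], 2, [3, 1, 2, 0, 1, 3]), ([0, 0, 1, 0], [0, 0, 0, 1], 0, [])]

/-- the Gram matrix of `D₄` -/
def GM : Fin 4 → Fin 4 → ℤ := ![![2, -1, 0, 0], ![-1, 2, -1, -1], ![0, -1, 2, 0], ![0, -1, 0, 2]]

/-- the unit vectors -/
def e4 (i : Fin 4) : List ℤ := (List.finRange 4).map fun j => if j = i then 1 else 0

theorem box1 : ∀ a b c d : Fin 5, d4 [(a.val : ℤ) - 2, (b.val : ℤ) - 2, (c.val : ℤ) - 2, (d.val : ℤ) - 2]
    [(a.val : ℤ) - 2, (b.val : ℤ) - 2, (c.val : ℤ) - 2, (d.val : ℤ) - 2] = 2 →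
    (t1.any fun r => decide (r.1 = [(a.val : ℤ) - 2, (b.val : ℤ) - 2, (c.val : ℤ) - 2, (d.val : ℤ) - 2])) = true := by
  decide +kernel

theorem chk1 : (t1.all fun r => decide (ap4 r.2 r.1 = e4 1)) = true := by decide +kernel

theorem chk2a : (t1.all fun r => decide (d4 r.1 (e4 1) ≠ -1) || t2.any fun s => decide (s.1 = r.1)) = true := by
  decide +kernel

theorem chk2 : (t2.all fun s => decide (ap4 s.2 (e4 1) = e4 1) && decide (ap4 s.2 s.1 = e4 0)) = true := by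
  decide +kernel

theorem chk3a : (t1.all fun r => decide (d4 r.1 (e4 1) ≠ -1) || (decide (d4 r.1 (e4 0) ≠ 0) ||
    t1.all fun r' => decide (d4 r'.1 (e4 1) ≠ -1) || (decide (d4 r'.1 (e4 0) ≠ 0) || (decide (d4 r.1 r'.1 ≠ 0) ||
      t3.any fun s => decide (s.1 = r.1) && decide (s.2.1 = r'.1))))) = true := by decide +kernel

theorem chk3 : (t3.all fun s => decide ([e4 0, e4 1, s.1, s.2.1].map (ap4 s.2.2.2) =
    (List.finRange 4).map fun i => e4 (pm s.2.2.1 i))) = true := by decide +kernel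

theorem four_of_length {x : List ℤ} (h : x.length = 4) : ∃ a b c d, x = [a, b, c, d] := by
  match x, h with
  | [a, b, c, d], _ => exact ⟨a, b, c, d, rfl⟩

theorem mem_t1 {x : List ℤ} (hl : x.length = 4) (hx : d4 x x = 2) : ∃ r ∈ t1, r.1 = x := by
  obtain ⟨a, b, c, d, rfl⟩ := four_of_length hl
  have h : (2 * a - b) ^ 2 + (2 * c - b) ^ 2 + (2 * d - b) ^ 2 + b ^ 2 = 4 := by
    have h1 : d4 [a, b, c, d] [a, b, c, d] = a * (2 * a - b) + b * (2 * b - a - c - d) + c * (2 * c - b) +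
      d * (2 * d - b) := rfl
    rw [h1] at hx
    linear_combination 2 * hx
  have sq : ∀ z : ℤ, z ^ 2 ≤ 4 → -2 ≤ z ∧ z ≤ 2 := fun z hz => ⟨by nlinarith, by nlinarith⟩
  have n1 := sq_nonneg (2 * a - b)
  have n2 := sq_nonneg (2 * c - b)
  have n3 := sq_nonneg (2 * d - b)
  have n4 := sq_nonneg b
  have hb := sq b (by linarith)
  have ha := sq (2 * a - b) (by linarith)
  have hc := sq (2 * c - b) (by linarith)
  have hd := sq (2 * d - b) (by linarith)
  have key : ∀ z : ℤ, -2 ≤ z → z ≤ 2 → ∃ n : Fin 5, ((n.val : ℤ) - 2) = z := fun z h1 h2 =>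
    ⟨⟨(z + 2).toNat, by omega⟩, by simp only []; omega⟩
  obtain ⟨a', rfl⟩ := key a (by omega) (by omega)
  obtain ⟨b', rfl⟩ := key b (by omega) (by omega)
  obtain ⟨c', rfl⟩ := key c (by omega) (by omega)
  obtain ⟨d', rfl⟩ := key d (by omega) (by omega)
  obtain ⟨r, hr, h⟩ := List.any_eq_true.1 (box1 a' b' c' d' hx)
  exact ⟨r, hr, of_decide_eq_true h⟩

/-! ### Coordinates -/

/-- the vector with coordinates `x` -/
def lc (b : Fin 4 → Fin 8 → ℤ) (x : List ℤ) : Fin 8 → ℤ :=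
  x.getD 0 0 • b 0 + x.getD 1 0 • b 1 + x.getD 2 0 • b 2 + x.getD 3 0 • b 3

theorem lc_cons (b : Fin 4 → Fin 8 → ℤ) (x0 x1 x2 x3 : ℤ) :
    lc b [x0, x1, x2, x3] = x0 • b 0 + x1 • b 1 + x2 • b 2 + x3 • b 3 := rfl

theorem lc_e4 (b : Fin 4 → Fin 8 → ℤ) (i : Fin 4) : lc b (e4 i) = b i := by
  fin_cases i <;> simp [lc, e4, List.finRange_succ]

section
variable {b : Fin 4 → Fin 8 → ℤ} (hb : Quad b)
include hb

theorem gram (i j : Fin 4) : bf (b i) (b j) = GM i j := by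
  have h : bf (b i) (b j) = if i = j then 2 else if Adj i j then -1 else 0 := by
    by_cases h : i = j
    · rw [h, if_pos rfl, bf_self (hb.root j)]
    · rw [if_neg h, hb.ad i j h]
  have e : ∀ i j : Fin 4, (if i = j then (2 : ℤ) else if Adj i j then -1 else 0) = GM i j := by decide
  rw [h, e]

theorem bf_lc {x y : List ℤ} (hx : x.length = 4) (hy : y.length = 4) : bf (lc b x) (lc b y) = d4 x y := by
  obtain ⟨x0, x1, x2, x3, rfl⟩ := four_of_length hx
  obtain ⟨y0, y1, y2, y3, rfl⟩ := four_of_length hy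
  simp only [lc_cons, bf_add_left, bf_add_right, bf_smul_left, bf_smul_right, gram hb, d4, GM, Matrix.cons_val_zero,
    Matrix.cons_val_one, Matrix.cons_val]
  ring

theorem bf_lc_w8 {x : List ℤ} (hx : x.length = 4) (i : Fin 4) : bf (lc b x) (act w8 (b i)) = 0 := by
  obtain ⟨x0, x1, x2, x3, rfl⟩ := four_of_length hx
  simp only [lc_cons, bf_add_left, bf_smul_left, hb.orth, mul_zero, add_zero]

theorem act_rr_lc (i : Fin 4) {x : List ℤ} (hx : x.length = 4) : act (rr (b i)) (lc b x) = lc b (s4 i x) := by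
  have h := bf_lc hb hx (y := e4 i) (by simp [e4])
  rw [lc_e4] at h
  rw [act_rr (hb.root i), bf_lc_w8 hb hx, zero_smul, sub_zero, h]
  obtain ⟨x0, x1, x2, x3, rfl⟩ := four_of_length hx
  have e0 : e4 0 = [1, 0, 0, 0] := by decide
  have e1 : e4 1 = [0, 1, 0, 0] := by decide
  have e2 : e4 2 = [0, 0, 1, 0] := by decide
  have e3 : e4 3 = [0, 0, 0, 1] := by decide
  match i with
  | 0 =>
    rw [e0, lc_cons]
    show _ = lc b [x1 - x0, x1, x2, x3]
    rw [lc_cons, d4]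
    module
  | 1 =>
    rw [e1, lc_cons]
    show _ = lc b [x0, x0 + x2 + x3 - x1, x2, x3]
    rw [lc_cons, d4]
    module
  | 2 =>
    rw [e2, lc_cons]
    show _ = lc b [x0, x1, x1 - x2, x3]
    rw [lc_cons, d4]
    module
  | 3 =>
    rw [e3, lc_cons]
    show _ = lc b [x0, x1, x2, x1 - x3]
    rw [lc_cons, d4]
    module

end

theorem length_s4 (i : Fin 4) {x : List ℤ} (hx : x.length = 4) : (s4 i x).length = 4 := by
  obtain ⟨x0, x1, x2, x3, rfl⟩ := four_of_length hx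
  fin_cases i <;> rfl

theorem length_ap4 (w : List (Fin 4)) {x : List ℤ} (hx : x.length = 4) : (ap4 w x).length = 4 := by
  induction w generalizing x with
  | nil => exact hx
  | cons i w ih => exact ih (length_s4 i hx)

/-- the group generated by the `rr (b i)` -/
noncomputable def RB (b : Fin 4 → Fin 8 → ℤ) : Subgroup W8 := Subgroup.closure (Set.range fun i => rr (b i))

theorem RB_le {b : Fin 4 → Fin 8 → ℤ} (hb : Quad b) : RB b ≤ CW := by
  rw [RB, Subgroup.closure_le]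
  rintro _ ⟨i, rfl⟩
  exact rr_mem_CW (hb.root i)

theorem exists_word4 {b : Fin 4 → Fin 8 → ℤ} (hb : Quad b) (w : List (Fin 4)) :
    ∃ u ∈ RB b, ∀ x : List ℤ, x.length = 4 → act u (lc b x) = lc b (ap4 w x) := by
  induction w with
  | nil => exact ⟨1, one_mem _, fun x _ => act_one _⟩
  | cons i w ih =>
    obtain ⟨u, hu, h⟩ := ih
    refine ⟨u * rr (b i), mul_mem hu (Subgroup.subset_closure ⟨i, rfl⟩), fun x hx => ?_⟩
    rw [act_mul, act_rr_lc hb i hx, h _ (length_s4 i hx)]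
    rfl

/-- coordinates of the elements of `Ph b` -/
theorem exists_coord {b : Fin 4 → Fin 8 → ℤ} {a : Fin 8 → ℤ} (ha : a ∈ Ph b) :
    ∃ x : List ℤ, x.length = 4 ∧ a = lc b x := by
  obtain ⟨-, c, hc⟩ := ha
  refine ⟨[c 0, c 1, c 2, c 3], rfl, ?_⟩
  rw [hc, Fin.sum_univ_four, lc_cons]

theorem length_e4 (i : Fin 4) : (e4 i).length = 4 := by simp [e4]

theorem quad_e4 (i j : Fin 4) : d4 (e4 i) (e4 j) = GM i j := by revert i j; decide

/-- **The Weyl group of `D₄` on its bases.** -/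
theorem exists_rb {b : Fin 4 → Fin 8 → ℤ} (hb : Quad b) {c : Fin 4 → Fin 8 → ℤ} (hc : ∀ i, c i ∈ Ph b)
    (hg : ∀ i j, bf (c i) (c j) = GM i j) : ∃ u ∈ RB b, ∃ t : Fin 6, ∀ i, act u (c i) = b (pm t i) := by
  choose x hx hcx using fun i => exists_coord (hc i)
  have hd : ∀ i j, d4 (x i) (x j) = GM i j := fun i j => by rw [← bf_lc hb (hx i) (hx j), ← hcx, ← hcx, hg]
  -- the first step
  obtain ⟨r, hr, hr1⟩ := mem_t1 (hx 1) (by rw [hd]; rfl)
  have h1 := of_decide_eq_true (List.all_eq_true.1 chk1 r hr)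
  rw [hr1] at h1
  obtain ⟨u1, hu1, hw1⟩ := exists_word4 hb r.2
  -- the new coordinates
  have tr : ∀ (w : List (Fin 4)) (y : Fin 4 → List ℤ), (∀ i, (y i).length = 4) → (∀ i j, d4 (y i) (y j) = GM i j) →
      ∀ i j, d4 (ap4 w (y i)) (ap4 w (y j)) = GM i j := by
    intro w y hy hyy i j
    obtain ⟨u, -, hw⟩ := exists_word4 hb w
    rw [← bf_lc hb (length_ap4 w (hy i)) (length_ap4 w (hy j)), ← hw _ (hy i), ← hw _ (hy j), bf_act,
      bf_lc hb (hy i) (hy j), hyy]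
  have hd1 := tr r.2 x hx hd
  have hx1 : ∀ i, (ap4 r.2 (x i)).length = 4 := fun i => length_ap4 _ (hx i)
  generalize hyx : (fun i => ap4 r.2 (x i)) = y at *
  have hy : ∀ i, ap4 r.2 (x i) = y i := fun i => congrFun hyx i
  simp only [hy] at hd1 hx1 h1
  -- the second step
  obtain ⟨r', hr', hr1'⟩ := mem_t1 (hx1 0) (by rw [hd1]; rfl)
  have h2 := List.all_eq_true.1 chk2a r' hr'
  rw [Bool.or_eq_true, decide_eq_true_eq, hr1', ← h1, hd1] at h2
  obtain ⟨s, hs, hs1⟩ := List.any_eq_true.1 (h2.resolve_left (fun h => h (by rfl)))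
  have h3 := List.all_eq_true.1 chk2 s hs
  rw [of_decide_eq_true hs1, Bool.and_eq_true, decide_eq_true_eq, decide_eq_true_eq, ← h1] at h3
  obtain ⟨u2, hu2, hw2⟩ := exists_word4 hb s.2
  have hd2 := tr s.2 y hx1 hd1
  have hx2 : ∀ i, (ap4 s.2 (y i)).length = 4 := fun i => length_ap4 _ (hx1 i)
  generalize hzy : (fun i => ap4 s.2 (y i)) = z at *
  have hz : ∀ i, ap4 s.2 (y i) = z i := fun i => congrFun hzy i
  simp only [hz] at hd2 hx2 h3
  have z1 : z 1 = e4 1 := h3.1.trans h1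
  have z0 : z 0 = e4 0 := h3.2
  -- the third step
  obtain ⟨p, hp, hp1⟩ := mem_t1 (hx2 2) (by rw [hd2]; rfl)
  obtain ⟨p', hp', hp1'⟩ := mem_t1 (hx2 3) (by rw [hd2]; rfl)
  have h4 := List.all_eq_true.1 chk3a p hp
  rw [Bool.or_eq_true, decide_eq_true_eq, Bool.or_eq_true, decide_eq_true_eq, hp1, ← z1, ← z0, hd2, hd2] at h4
  have h5 := List.all_eq_true.1 ((h4.resolve_left (fun h => h (by rfl))).resolve_left (fun h => h (by rfl))) p' hp'
  rw [Bool.or_eq_true, decide_eq_true_eq, Bool.or_eq_true, decide_eq_true_eq, Bool.or_eq_true, decide_eq_true_eq,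
    hp1', hd2, hd2, hd2] at h5
  obtain ⟨m, hm, hm1⟩ := List.any_eq_true.1 (((h5.resolve_left (fun h => h (by rfl))).resolve_left
    (fun h => h (by rfl))).resolve_left (fun h => h (by rfl)))
  rw [Bool.and_eq_true, decide_eq_true_eq, decide_eq_true_eq] at hm1
  have h6 := of_decide_eq_true (List.all_eq_true.1 chk3 m hm)
  rw [hm1.1, hm1.2, ← z0, ← z1] at h6
  obtain ⟨u3, hu3, hw3⟩ := exists_word4 hb m.2.2.2
  refine ⟨u3 * u2 * u1, mul_mem (mul_mem hu3 hu2) hu1, m.2.2.1, fun i => ?_⟩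
  rw [act_mul, act_mul, hcx, hw1 _ (hx i), hy, hw2 _ (hx1 i), hz, hw3 _ (hx2 i), ← lc_e4 b (pm m.2.2.1 i)]
  congr 1
  match i with
  | 0 => exact congrArg (fun l => l.getD 0 []) h6
  | 1 => exact congrArg (fun l => l.getD 1 []) h6
  | 2 => exact congrArg (fun l => l.getD 2 []) h6
  | 3 => exact congrArg (fun l => l.getD 3 []) h6

end Cfsg.Agent.H136.EE
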